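import Groth.Agent.Gaga.H976.Defs

/-!
# The direct image of a sheaf of finite presentation supported on a closed set `S` along a map
which is a closed embedding on `S`

* `StRel`: stalkwise form of `TM3.LRel`;
* `fpAt_iff`: `N` is finitely presented near `x` iff there are sections over a neighbourhood `W` of
  `x` which generate the stalks at all points of `W` and sections of the ring generating the
  relations between their germs at all points of `W`;
* `pushSt_bijective`, `push_stalk_subsingleton`: stalks of the direct image;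
* `fpAt_push`.
-/

set_option autoImplicit false

open CategoryTheory TopologicalSpace Opposite

noncomputable section

namespace Groth.Agent.Gaga.H217.FpPush

open Groth.Agent.Gaga.H975.ModSec Groth.Agent.Gaga.H986.Stalk Groth.Agent.Gaga.H986.Pull
open Groth.Agent.Gaga.H976.Defs Groth.Agent.Gaga.H986

section Basic

variable {T : TopCat.{0}} {R : TopCat.Sheaf CommRingCat.{0} T}

/-- The `r k` generate the relations between the germs of the `s j` at all points of `W`. -/
def StRel (N : Mod R) (W : Opens T) {ι κ : Type*} [Fintype ι] [Fintype κ] (s : ι → Sec N W)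
    (r : κ → ι → O R W) : Prop :=
  ∀ (x : T) (hx : x ∈ W), (∀ k, ∑ j, gmO R x W hx (r k j) • gm N x W hx (s j) = 0) ∧
    ∀ c : ι → StO R x, ∑ j, c j • gm N x W hx (s j) = 0 →
      ∃ d : κ → StO R x, ∀ j, c j = ∑ k, d k * gmO R x W hx (r k j)

theorem StRel.reindex {N : Mod R} {W : Opens T} {ι κ κ' : Type*} [Fintype ι] [Fintype κ]
    [Fintype κ'] {s : ι → Sec N W} {r : κ → ι → O R W} (h : StRel N W s r) (e : κ' ≃ κ) :
    StRel N W s (fun k j => r (e k) j) := by
  intro x hx
  refine ⟨fun k => (h x hx).1 (e k), fun c hc => ?_⟩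
  obtain ⟨d, hd⟩ := (h x hx).2 c hc
  refine ⟨fun k => d (e k), fun j => ?_⟩
  rw [hd j]
  exact (Equiv.sum_comp e fun k => d k * gmO R x W hx (r k j)).symm

theorem lgen_iff (N : Mod R) (W : Opens T) {n : ℕ} (s : Fin n → Sec N W) :
    H976.TM3.LGen N W s ↔ Nak.Gen N s := by
  rw [Nak.gen_iff]
  constructor
  · intro h x U hU hx m
    obtain ⟨V', h', hx', c, hc⟩ := h U hU m x hx
    exact ⟨V', hx', h', c, hc⟩
  · intro h V hV t x hx
    obtain ⟨V', hx', h', c, hc⟩ := h x V hV hx t
    exact ⟨V', h', hx', c, hc⟩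

theorem lrel_iff (N : Mod R) (W : Opens T) {n m : ℕ} (s : Fin n → Sec N W)
    (r : Fin m → Fin n → O R W) : H976.TM3.LRel N W s r ↔ StRel N W s r := by
  constructor
  · intro h x hx
    refine ⟨fun k => ?_, fun c hc => ?_⟩
    · have h1 : (∑ j, r k j • s j : Sec N W) = 0 := h.1 k
      have h2 := congrArg (gm N x W hx) h1
      rw [map_sum, map_zero] at h2
      rw [← h2]
      exact Finset.sum_congr rfl fun j _ => (gm_smul N x W hx _ _).symm
    · obtain ⟨U, hxU, c', hc'⟩ := exists_gmO_fin x c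
      have h1 : gm N x (U ⊓ W) ⟨hxU, hx⟩ (∑ j, (resO (inf_le_left : U ⊓ W ≤ U) (c' j) : O R (U ⊓ W)) •
          (res N (inf_le_right : U ⊓ W ≤ W) (s j) : Sec N (U ⊓ W))) = 0 := by
        rw [map_sum, ← hc]
        refine Finset.sum_congr rfl fun j _ => ?_
        rw [gm_smul, gm_res, gmO_resO, hc']
      obtain ⟨W', hxW', hW', e⟩ := exists_res_eq_zero N _ h1
      rw [map_sum] at e
      have h2 : (∑ j, (resO (hW'.trans inf_le_left : W' ≤ U) (c' j) : O R W') •
          (res N (hW'.trans inf_le_right : W' ≤ W) (s j) : Sec N W')) = 0 := by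
        rw [← e]
        refine Finset.sum_congr rfl fun j _ => ?_
        rw [res_smul, res_res, resO_resO]
      obtain ⟨V', h', hxV', d, hd⟩ : ∃ (V' : Opens T) (h' : V' ≤ W'), x ∈ V' ∧
          ∃ d : Fin m → O R V', ∀ j, resO h' (resO (hW'.trans inf_le_left : W' ≤ U) (c' j)) =
            ∑ k, d k * resO (h'.trans (hW'.trans inf_le_right)) (r k j) :=
        h.2 W' (hW'.trans inf_le_right)
          (fun j => resO (hW'.trans inf_le_left : W' ≤ U) (c' j)) h2 x hxW'
      refine ⟨fun k => gmO R x V' hxV' (d k), fun j => ?_⟩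
      have h4 := congrArg (gmO R x V' hxV') (hd j)
      rw [gmO_resO, gmO_resO, hc', map_sum] at h4
      rw [h4]
      refine Finset.sum_congr rfl fun k _ => ?_
      rw [map_mul, gmO_resO]
  · intro h
    refine ⟨fun k => ?_, fun V hV (c : Fin n → O R V) hc x hx => ?_⟩
    · change (∑ j, r k j • s j : Sec N W) = 0
      apply eq_of_gm N
      intro x hx
      rw [map_sum, map_zero, ← (h x hx).1 k]
      exact Finset.sum_congr rfl fun j _ => gm_smul N x W hx _ _
    · have hc1 : (∑ j, (c j : O R V) • res N hV (s j) : Sec N V) = 0 := hc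
      have h1 : ∑ j, gmO R x V hx (c j) • gm N x W (hV hx) (s j) = 0 := by
        have h2 := congrArg (gm N x V hx) hc1
        rw [map_sum, map_zero] at h2
        rw [← h2]
        refine Finset.sum_congr rfl fun j _ => ?_
        rw [gm_smul, gm_res]
      obtain ⟨d, hd⟩ := (h x (hV hx)).2 _ h1
      obtain ⟨U, hxU, d', hd'⟩ := exists_gmO_fin x d
      have h3 : ∀ j, gmO R x (U ⊓ V) ⟨hxU, hx⟩ (resO inf_le_right (c j)) =
          gmO R x (U ⊓ V) ⟨hxU, hx⟩ (∑ k, resO (inf_le_left : U ⊓ V ≤ U) (d' k) *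
            resO ((inf_le_right : U ⊓ V ≤ V).trans hV) (r k j)) := by
        intro j
        rw [gmO_resO, map_sum]
        refine (hd j).trans (Finset.sum_congr rfl fun k _ => ?_)
        rw [map_mul, gmO_resO, gmO_resO, hd']
      choose Wj hxWj hWj e using fun j => exists_resO_eq _ (h3 j)
      obtain ⟨V', hxV', hV'U, hV'⟩ := Nak.exists_fin_inter Wj hxWj (U ⊓ V) ⟨hxU, hx⟩
      refine ⟨V', hV'U.trans inf_le_right, hxV', fun k => resO (hV'U.trans inf_le_left) (d' k),
        fun j => ?_⟩
      change resO _ (c j) = ∑ k, resO (hV'U.trans inf_le_left) (d' k) *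
        resO ((hV'U.trans inf_le_right).trans hV) (r k j)
      have h4 := congrArg (resO (hV' j)) (e j)
      rw [resO_resO, resO_resO, resO_resO, map_sum] at h4
      rw [h4]
      refine Finset.sum_congr rfl fun k _ => ?_
      rw [map_mul, resO_resO, resO_resO]

/-- Stalkwise criterion for finite presentation. -/
theorem fpAt_iff (N : Mod R) (x : T) :
    H976.TM3.FPAt N x ↔ ∃ (W : Opens T) (_ : x ∈ W) (n m : ℕ) (s : Fin n → Sec N W)
      (r : Fin m → Fin n → O R W), Nak.Gen N s ∧ StRel N W s r := by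
  constructor
  · rintro ⟨W, hx, n, m, s, r, h1, h2⟩
    exact ⟨W, hx, n, m, s, r, (lgen_iff N W s).1 h1, (lrel_iff N W s r).1 h2⟩
  · rintro ⟨W, hx, n, m, s, r, h1, h2⟩
    exact ⟨W, hx, n, m, s, r, (lgen_iff N W s).2 h1, (lrel_iff N W s r).2 h2⟩

/-- Sections with the same germs at the points of `S` are equal, if the stalks off `S` vanish. -/
theorem eq_of_gm_on (N : Mod R) (S : Set T) (hS : ∀ y ∉ S, Subsingleton (St N y)) {A : Opens T}
    (s t : Sec N A) (h : ∀ y ∈ S, ∀ hy : y ∈ A, gm N y A hy s = gm N y A hy t) : s = t := by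
  apply eq_of_gm N
  intro y hy
  by_cases hyS : y ∈ S
  · exact h y hyS hy
  · have := hS y hyS
    exact Subsingleton.elim _ _

/-- Sections defined near `S` extend. -/
theorem exists_ext (N : Mod R) (S : Set T) (hSc : IsClosed S)
    (hS : ∀ y ∉ S, Subsingleton (St N y)) {A B : Opens T} (hBA : B ≤ A)
    (h : ∀ y ∈ S, y ∈ A → y ∈ B) (s : Sec N B) : ∃ t : Sec N A, res N hBA t = s := by
  let C : Opens T := A ⊓ ⟨Sᶜ, hSc.isOpen_compl⟩
  let U : Bool → Opens T := fun b => cond b B C
  let σ : ∀ b, Sec N (U b) := fun b => match b with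
    | true => s
    | false => (0 : Sec N C)
  have hU : ∀ b, U b ≤ A := fun b => match b with
    | true => hBA
    | false => inf_le_left
  have hzero : ∀ (W : Opens T) (_ : W ≤ C) (a b : Sec N W), a = b := by
    intro W hW a b
    refine eq_of_gm_on N S hS a b fun y hyS hy => absurd hyS (hW hy).2
  obtain ⟨t, ht⟩ := exists_glue N U A (fun y hy => by
      by_cases hyS : y ∈ S
      · exact Opens.mem_iSup.2 ⟨true, h y hyS hy⟩
      · exact Opens.mem_iSup.2 ⟨false, ⟨hy, hyS⟩⟩) hU σ (by
      intro i j W hi hj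
      match i, j with
      | true, true => rfl
      | true, false => exact hzero W hj _ _
      | false, true => exact hzero W hi _ _
      | false, false => rfl)
  exact ⟨t, ht true⟩

end Basic

section Push

variable {T T1 : TopCat.{0}} {f : T1 ⟶ T} {R : TopCat.Sheaf CommRingCat.{0} T}
  {R1 : TopCat.Sheaf CommRingCat.{0} T1}
  [(Opens.map f).IsContinuous (Opens.grothendieckTopology T) (Opens.grothendieckTopology T1)]
  (φ : ringSheaf R ⟶ ((Opens.map f).sheafPushforwardContinuous RingCat.{0}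
    (Opens.grothendieckTopology T) (Opens.grothendieckTopology T1)).obj (ringSheaf R1))

omit [(Opens.map f).IsContinuous (Opens.grothendieckTopology T)
  (Opens.grothendieckTopology T1)] in
/-- Neighbourhoods of `x` whose preimage meets `S` in a given neighbourhood of the fibre. -/
theorem exists_nhds {S : Set T1} (hf : ∀ C : Set T1, IsClosed C → IsClosed (f '' (C ∩ S)))
    (x : T) (B : Opens T1) (hB : ∀ y ∈ S, f y = x → y ∈ B) (W : Opens T) (hx : x ∈ W) :
    ∃ (V : Opens T) (_ : x ∈ V) (_ : V ≤ W), ∀ y ∈ S, f y ∈ V → y ∈ B := by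
  refine ⟨W ⊓ ⟨(f '' ((B : Set T1)ᶜ ∩ S))ᶜ, (hf _ B.isOpen.isClosed_compl).isOpen_compl⟩,
    ⟨hx, ?_⟩, inf_le_left, fun y hyS hy => ?_⟩
  · rintro ⟨y, ⟨hyB, hyS⟩, hyx⟩
    exact hyB (hB y hyS hyx)
  · by_contra hyB
    exact hy.2 ⟨y, ⟨hyB, hyS⟩, rfl⟩

theorem pushSt_smul (N : Mod R1) (y : T1) (r : StO R (f y)) (t : St ((push φ).obj N) (f y)) :
    pushSt φ N y (r • t) = stR φ y r • pushSt φ N y t := by
  obtain ⟨V, hV, r, t, rfl, rfl⟩ := exists_common ((push φ).obj N) (f y) r t
  rw [← gm_smul, pushSt_gm, pushSt_gm, ofPush_smul, gm_smul, stR_gmO]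

theorem pushSt_sum (N : Mod R1) (y : T1) {ι : Type*} [Fintype ι] (c : ι → StO R (f y))
    (t : ι → St ((push φ).obj N) (f y)) :
    pushSt φ N y (∑ j, c j • t j) = ∑ j, stR φ y (c j) • pushSt φ N y (t j) := by
  rw [map_sum]
  exact Finset.sum_congr rfl fun j _ => pushSt_smul φ N y _ _

/-- The stalks of the direct image at the points of `f S`. -/
theorem pushSt_bijective (N : Mod R1) (S : Set T1) (hSc : IsClosed S)
    (hS : ∀ y ∉ S, Subsingleton (St N y))
    (hf : ∀ C : Set T1, IsClosed C → IsClosed (f '' (C ∩ S))) (y : T1)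
    (hy : ∀ y' ∈ S, f y' = f y → y' = y) : Function.Bijective (pushSt φ N y) := by
  constructor
  · rw [injective_iff_map_eq_zero]
    intro t ht
    obtain ⟨V, hV, s, rfl⟩ := exists_gm ((push φ).obj N) (f y) t
    rw [pushSt_gm] at ht
    obtain ⟨B, hyB, hBV, e⟩ := exists_res_eq_zero N _ ht
    obtain ⟨V', hyV', hV', h⟩ := exists_nhds hf (f y) B (fun y' hy' h => by rwa [hy y' hy' h]) V hV
    rw [← gm_res _ (f y) hV' hyV']
    have h1 : res ((push φ).obj N) hV' s = 0 := by
      change ofPush φ (res ((push φ).obj N) hV' s) = ofPush φ 0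
      rw [ofPush_res, map_zero]
      refine eq_of_gm_on N S hS _ _ fun y' hy'S hy' => ?_
      have h2 := congrArg (gm N y' B (h y' hy'S hy')) e
      rw [gm_res, map_zero] at h2
      rw [gm_res, map_zero]
      exact h2
    rw [h1, map_zero]
  · intro t
    obtain ⟨B, hyB, s, rfl⟩ := exists_gm N y t
    obtain ⟨V, hyV, -, h⟩ := exists_nhds hf (f y) B (fun y' hy' h => by rwa [hy y' hy' h]) ⊤ trivial
    obtain ⟨t, ht⟩ := exists_ext N S hSc hS (inf_le_right : B ⊓ pre f V ≤ pre f V)
      (fun y' hy'S hy' => ⟨h y' hy'S hy', hy'⟩) (res N inf_le_left s)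
    refine ⟨gm ((push φ).obj N) (f y) V hyV (toPush φ t), ?_⟩
    rw [pushSt_gm, ofPush_toPush, ← gm_res N y (inf_le_right : B ⊓ pre f V ≤ pre f V) ⟨hyB, hyV⟩, ht,
      gm_res]

/-- The stalks of the direct image off `f S` vanish. -/
theorem push_stalk_subsingleton (N : Mod R1) (S : Set T1) (hS : ∀ y ∉ S, Subsingleton (St N y))
    (hf : ∀ C : Set T1, IsClosed C → IsClosed (f '' (C ∩ S))) (x : T)
    (hx : ∀ y ∈ S, f y ≠ x) : Subsingleton (St ((push φ).obj N) x) := by
  refine subsingleton_of_forall_eq 0 fun t => ?_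
  obtain ⟨V, hV, s, rfl⟩ := exists_gm ((push φ).obj N) x t
  obtain ⟨V', hyV', hV', h⟩ := exists_nhds hf x ⊥ (fun y' hy' h => absurd h (hx y' hy')) V hV
  rw [← gm_res _ x hV' hyV']
  have h1 : res ((push φ).obj N) hV' s = 0 := by
    change ofPush φ (res ((push φ).obj N) hV' s) = ofPush φ 0
    refine eq_of_gm_on N S hS _ _ fun y' hy'S hy' => ?_
    exact absurd (h y' hy'S hy') (fun h => h)
  rw [h1, map_zero]

/-- **[F1]** The direct image of a sheaf of finite presentation, supported on a closed set `S` on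
which `f` is a closed embedding, killed by a (locally spread out) family of ideals `J` such that
`R → R1 / J` is surjective along `S`, with kernel generated by finitely many sections. -/
theorem fpAt_push (N : Mod R1) (S : Set T1) (hSc : IsClosed S)
    (hS : ∀ y ∉ S, Subsingleton (St N y))
    (hf : ∀ C : Set T1, IsClosed C → IsClosed (f '' (C ∩ S))) (hinj : Set.InjOn f S)
    (J : ∀ y : T1, Ideal (StO R1 y)) (hJ : ∀ y, ∀ b ∈ J y, ∀ t : St N y, b • t = 0)
    (hJloc : ∀ y, ∀ b ∈ J y, ∃ (V : Opens T1) (hV : y ∈ V) (b' : O R1 V), gmO R1 y V hV b' = b ∧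
      ∀ y' (hy' : y' ∈ V), gmO R1 y' V hy' b' ∈ J y')
    (hsurj : ∀ y ∈ S, ∀ a : StO R1 y, ∃ b : StO R (f y), a - stR φ y b ∈ J y)
    (x : T) (W : Opens T) (hx : x ∈ W) (c : ℕ) (g : Fin c → O R W)
    (hg : ∀ y ∈ S, ∀ hy : f y ∈ W, ∀ b : StO R (f y), stR φ y b ∈ J y →
      b ∈ Ideal.span (Set.range fun i => gmO R (f y) W hy (g i)))
    (hg' : ∀ y ∈ S, ∀ hy : f y ∈ W, ∀ i, stR φ y (gmO R (f y) W hy (g i)) ∈ J y)
    (hg'' : ∀ x' (hx' : x' ∈ W), (∀ y ∈ S, f y ≠ x') →
      Ideal.span (Set.range fun i => gmO R x' W hx' (g i)) = ⊤)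
    (hN : ∀ y, H976.TM3.FPAt N y) : H976.TM3.FPAt ((push φ).obj N) x := by
  have hbij : ∀ y ∈ S, Function.Bijective (pushSt φ N y) := fun y hyS =>
    pushSt_bijective φ N S hSc hS hf y fun y' hy' h => hinj hy' hyS h
  rw [fpAt_iff]
  by_cases hxS : ∃ y ∈ S, f y = x
  · obtain ⟨y0, hy0, rfl⟩ := hxS
    obtain ⟨W1, hyW1, n, m, s, r, hgen, hrel⟩ := (fpAt_iff N y0).1 (hN y0)
    -- lift the relations
    have key : ∀ kj : Fin m × Fin n, ∃ (V : Opens T) (_ : f y0 ∈ V) (b' : O R V) (B : Opens T1)
        (_ : y0 ∈ B) (hBV : B ≤ pre f V) (hBW : B ≤ W1), ∀ (y : T1) (hy : y ∈ B),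
          gmO R1 y W1 (hBW hy) (r kj.1 kj.2) - gmO R1 y (pre f V) (hBV hy) (cm φ V b') ∈ J y := by
      rintro ⟨k, j⟩
      obtain ⟨b, hb⟩ := hsurj y0 hy0 (gmO R1 y0 W1 hyW1 (r k j))
      obtain ⟨V, hV, b', rfl⟩ := exists_gmO (f y0) b
      obtain ⟨V1, hV1, e, he, heJ⟩ := hJloc y0 _ hb
      rw [stR_gmO] at he
      have h1 : gmO R1 y0 (V1 ⊓ (W1 ⊓ pre f V)) ⟨hV1, hyW1, hV⟩ (resO inf_le_left e) =
          gmO R1 y0 (V1 ⊓ (W1 ⊓ pre f V)) ⟨hV1, hyW1, hV⟩
            (resO (inf_le_right.trans inf_le_left) (r k j) -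
              resO (inf_le_right.trans inf_le_right) (cm φ V b')) := by
        rw [gmO_resO, map_sub, gmO_resO, gmO_resO, he]
      obtain ⟨B, hyB, hB, e'⟩ := exists_resO_eq _ h1
      refine ⟨V, hV, b', B, hyB, hB.trans (inf_le_right.trans inf_le_right),
        hB.trans (inf_le_right.trans inf_le_left), fun y hy => ?_⟩
      have h2 := congrArg (gmO R1 y B hy) e'
      rw [gmO_resO, gmO_resO, gmO_resO, map_sub, gmO_resO, gmO_resO] at h2
      rw [← h2]
      exact heJ y _
    choose Vk hVk b' Bk hBk hBV hBW hJk using key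
    obtain ⟨V0, hxV0, hV0W, hV0⟩ := Nak.exists_fin_inter Vk hVk W hx
    obtain ⟨B0, hyB0, hB0W, hB0⟩ := Nak.exists_fin_inter Bk hBk W1 hyW1
    obtain ⟨V2, hxV2, hV20, hV2⟩ := exists_nhds hf (f y0) B0
      (fun y hy h => by rwa [hinj hy hy0 h]) V0 hxV0
    have hVW : V2 ≤ W := hV20.trans hV0W
    -- the generators
    choose st hst using fun j => exists_ext N S hSc hS (inf_le_right : W1 ⊓ pre f V2 ≤ pre f V2)
      (fun y hyS hy => ⟨hB0W (hV2 y hyS hy), hy⟩) (res N inf_le_left (s j))
    have hgst : ∀ (y : T1) (hyS : y ∈ S) (hy : f y ∈ V2) (j : Fin n),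
        pushSt φ N y (gm ((push φ).obj N) (f y) V2 hy (toPush φ (st j))) =
          gm N y W1 (hB0W (hV2 y hyS hy)) (s j) := by
      intro y hyS hy j
      rw [pushSt_gm, ofPush_toPush, ← gm_res N y (inf_le_right : W1 ⊓ pre f V2 ≤ pre f V2)
        ⟨hB0W (hV2 y hyS hy), hy⟩, hst, gm_res]
    -- the relations
    let rt : Fin m ⊕ (Fin c × Fin n) → Fin n → O R V2 := fun k j => match k with
      | .inl k => resO (hV20.trans (hV0 (k, j))) (b' (k, j))
      | .inr p => if j = p.2 then resO hVW (g p.1) else 0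
    have hrt1 : ∀ (y : T1) (hyS : y ∈ S) (hy : f y ∈ V2) (k : Fin m) (j : Fin n),
        gmO R1 y W1 (hB0W (hV2 y hyS hy)) (r k j) -
          stR φ y (gmO R (f y) V2 hy (rt (.inl k) j)) ∈ J y := by
      intro y hyS hy k j
      change _ - stR φ y (gmO R (f y) V2 hy (resO _ (b' (k, j)))) ∈ J y
      rw [gmO_resO, stR_gmO]
      exact hJk (k, j) y (hB0 (k, j) (hV2 y hyS hy))
    have hsum : ∀ (x' : T) (hx' : x' ∈ V2) (v : Fin n → Fin c → StO R x') (j : Fin n),
        ∑ p : Fin c × Fin n, v p.2 p.1 * gmO R x' V2 hx' (rt (.inr p) j) =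
          ∑ i, v j i * gmO R x' W (hVW hx') (g i) := by
      intro x' hx' v j
      rw [Fintype.sum_prod_type]
      refine Finset.sum_congr rfl fun i _ => ?_
      rw [Finset.sum_eq_single j]
      · have h1 : rt (.inr (i, j)) j = resO hVW (g i) := if_pos rfl
        rw [h1, gmO_resO]
      · intro l _ hl
        have h1 : rt (.inr (i, l)) j = 0 := if_neg (Ne.symm hl)
        rw [h1, map_zero, mul_zero]
      · intro h
        exact absurd (Finset.mem_univ j) h
    let e := (Fintype.equivFin (Fin m ⊕ (Fin c × Fin n))).symm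
    refine ⟨V2, hxV2, n, _, fun j => toPush φ (st j), fun k j => rt (e k) j, ?_,
      StRel.reindex (r := rt) ?_ e⟩
    · intro x' hx'
      by_cases h : ∃ y ∈ S, f y = x'
      · obtain ⟨y, hyS, rfl⟩ := h
        rw [eq_top_iff]
        rintro t -
        have h1 : pushSt φ N y t ∈ Submodule.span (StO R1 y)
            (Set.range fun j => gm N y W1 (hB0W (hV2 y hyS hx')) (s j)) := by
          rw [hgen y _]
          trivial
        rw [Submodule.mem_span_range_iff_exists_fun] at h1 ⊢
        obtain ⟨a, ha⟩ := h1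
        choose b hb using fun j => hsurj y hyS (a j)
        refine ⟨b, (hbij y hyS).1 ?_⟩
        rw [pushSt_sum, ← ha]
        refine Finset.sum_congr rfl fun j _ => ?_
        rw [hgst y hyS hx' j]
        have h2 := hJ y _ (hb j) (gm N y W1 (hB0W (hV2 y hyS hx')) (s j))
        rw [sub_smul, sub_eq_zero] at h2
        exact h2.symm
      · have := push_stalk_subsingleton φ N S hS hf x' (fun y hyS hy => h ⟨y, hyS, hy⟩)
        rw [eq_top_iff]
        rintro t -
        rw [Subsingleton.elim t 0]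
        exact Submodule.zero_mem _
    · intro x' hx'
      by_cases h : ∃ y ∈ S, f y = x'
      · obtain ⟨y, hyS, rfl⟩ := h
        have hcom : ∀ d : Fin n → StO R (f y),
            pushSt φ N y (∑ j, d j • gm ((push φ).obj N) (f y) V2 hx' (toPush φ (st j))) =
              ∑ j, stR φ y (d j) • gm N y W1 (hB0W (hV2 y hyS hx')) (s j) := by
          intro d
          rw [pushSt_sum]
          exact Finset.sum_congr rfl fun j _ => by rw [hgst y hyS hx' j]
        refine ⟨fun k => (hbij y hyS).1 ?_, fun d hd => ?_⟩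
        · rw [hcom, map_zero]
          match k with
          | .inl k =>
            rw [← (hrel y (hB0W (hV2 y hyS hx'))).1 k]
            refine Finset.sum_congr rfl fun j _ => ?_
            have h2 := hJ y _ (hrt1 y hyS hx' k j) (gm N y W1 (hB0W (hV2 y hyS hx')) (s j))
            rw [sub_smul, sub_eq_zero] at h2
            exact h2.symm
          | .inr p =>
            refine Finset.sum_eq_zero fun j _ => ?_
            by_cases hj : j = p.2
            · have h1 : rt (.inr p) j = resO hVW (g p.1) := if_pos hj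
              rw [h1, gmO_resO]
              exact hJ y _ (hg' y hyS (hVW hx') p.1) _
            · have h1 : rt (.inr p) j = 0 := if_neg hj
              rw [h1, map_zero, map_zero, zero_smul]
        · have h1 := congrArg (pushSt φ N y) hd
          rw [hcom, map_zero] at h1
          obtain ⟨d', hd'⟩ := (hrel y _).2 _ h1
          choose b hb using fun k => hsurj y hyS (d' k)
          have h2 : ∀ j, stR φ y (d j - ∑ k, b k * gmO R (f y) V2 hx' (rt (.inl k) j)) ∈ J y := by
            intro j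
            rw [map_sub, hd' j, map_sum, ← Finset.sum_sub_distrib]
            refine Ideal.sum_mem _ fun k _ => ?_
            rw [map_mul]
            have h3 : d' k * gmO R1 y W1 (hB0W (hV2 y hyS hx')) (r k j) -
                stR φ y (b k) * stR φ y (gmO R (f y) V2 hx' (rt (.inl k) j)) =
                gmO R1 y W1 (hB0W (hV2 y hyS hx')) (r k j) * (d' k - stR φ y (b k)) +
                  stR φ y (b k) * (gmO R1 y W1 (hB0W (hV2 y hyS hx')) (r k j) -
                    stR φ y (gmO R (f y) V2 hx' (rt (.inl k) j))) := by ring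
            rw [h3]
            exact Ideal.add_mem _ (Ideal.mul_mem_left _ _ (hb k))
              (Ideal.mul_mem_left _ _ (hrt1 y hyS hx' k j))
          have h4 : ∀ j, ∃ v : Fin c → StO R (f y), ∑ i, v i * gmO R (f y) W (hVW hx') (g i) =
              d j - ∑ k, b k * gmO R (f y) V2 hx' (rt (.inl k) j) := by
            intro j
            have h5 := hg y hyS (hVW hx') _ (h2 j)
            rw [Ideal.mem_span_range_iff_exists_fun] at h5
            exact h5
          choose v hv using h4
          refine ⟨fun k => match k with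
            | .inl k => b k
            | .inr p => v p.2 p.1, fun j => ?_⟩
          rw [Fintype.sum_sum_type]
          change d j = ∑ k, b k * gmO R (f y) V2 hx' (rt (.inl k) j) +
            ∑ p : Fin c × Fin n, v p.2 p.1 * gmO R (f y) V2 hx' (rt (.inr p) j)
          rw [hsum, hv j]
          ring
      · have hx'S : ∀ y ∈ S, f y ≠ x' := fun y hyS hy => h ⟨y, hyS, hy⟩
        have := push_stalk_subsingleton φ N S hS hf x' hx'S
        refine ⟨fun k => Subsingleton.elim _ _, fun d _ => ?_⟩
        have h1 : (1 : StO R x') ∈ Ideal.span (Set.range fun i => gmO R x' W (hVW hx') (g i)) := by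
          rw [hg'' x' (hVW hx') hx'S]
          trivial
        rw [Ideal.mem_span_range_iff_exists_fun] at h1
        obtain ⟨u, hu⟩ := h1
        refine ⟨fun k => match k with
          | .inl _ => 0
          | .inr p => d p.2 * u p.1, fun j => ?_⟩
        rw [Fintype.sum_sum_type]
        change d j = ∑ k, 0 * gmO R x' V2 hx' (rt (.inl k) j) +
          ∑ p : Fin c × Fin n, (fun l i => d l * u i) p.2 p.1 * gmO R x' V2 hx' (rt (.inr p) j)
        rw [hsum x' hx' (fun l i => d l * u i)]
        simp only [zero_mul, Finset.sum_const_zero, zero_add, mul_assoc]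
        rw [← Finset.mul_sum, hu, mul_one]
  · -- off the image
    obtain ⟨V, hxV, -, hV⟩ := exists_nhds hf x ⊥
      (fun y hyS hy => absurd ⟨y, hyS, hy⟩ hxS) ⊤ trivial
    have h0 : ∀ x' ∈ V, Subsingleton (St ((push φ).obj N) x') := fun x' hx' =>
      push_stalk_subsingleton φ N S hS hf x' fun y hyS hy => hV y hyS (by rwa [hy])
    refine ⟨V, hxV, 0, 0, Fin.elim0, Fin.elim0, fun x' hx' => ?_, fun x' hx' => ?_⟩
    · have := h0 x' hx'
      rw [eq_top_iff]
      rintro t -
      rw [Subsingleton.elim t 0]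
      exact Submodule.zero_mem _
    · exact ⟨fun k => k.elim0, fun _ _ => ⟨Fin.elim0, fun j => j.elim0⟩⟩

end Push

end Groth.Agent.Gaga.H217.FpPush
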